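import Mathlib
import Cfsg.Agent.S0215
import Cfsg.Agent.Lib.Core.Basic

/-!
# An involution commuting with none of its other conjugates is central modulo `O(G)`
-/

set_option autoImplicit false
set_option linter.unusedSectionVars false

namespace Cfsg.Agent.Lib.SL2Pair

open Cfsg

variable {G : Type*} [Group G] [Finite G]

/-- An isolated involution is central in every 2-subgroup containing it. -/
theorem central_of_isolated {P : Subgroup G} (hP : IsPGroup 2 P) {j : G} (hjP : j ∈ P)
    (iso : ∀ g : G, (g * j * g⁻¹) * j = j * (g * j * g⁻¹) → g * j * g⁻¹ = j) {s : G} (hs : s ∈ P) :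
    s * j = j * s := by
  haveI : Fact (Nat.Prime 2) := ⟨Nat.prime_two⟩
  haveI : Group.IsNilpotent P := hP.isNilpotent
  set C : Subgroup P := (Subgroup.centralizer ({j} : Set G)).subgroupOf P with hC
  have hCtop : C = ⊤ := by
    by_contra hne
    have hlt : C < ⊤ := lt_top_iff_ne_top.mpr hne
    have := normalizerCondition_of_isNilpotent (G := P) C hlt
    obtain ⟨v, hv, hvC⟩ := SetLike.exists_of_lt this
    have hjC : (⟨j, hjP⟩ : P) ∈ C := by
      rw [hC, Subgroup.mem_subgroupOf, Subgroup.mem_centralizer_singleton_iff]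
    have h1 : v * ⟨j, hjP⟩ * v⁻¹ ∈ C := (Subgroup.mem_normalizer_iff.mp hv _).mp hjC
    rw [hC, Subgroup.mem_subgroupOf, Subgroup.mem_centralizer_singleton_iff] at h1
    have h2 := iso v h1
    apply hvC
    rw [hC, Subgroup.mem_subgroupOf, Subgroup.mem_centralizer_singleton_iff]
    calc (v : G) * j = (v * j * (v : G)⁻¹) * v := by group
      _ = j * v := by rw [h2]
  have hsC : (⟨s, hs⟩ : P) ∈ C := by rw [hCtop]; trivial
  rw [hC, Subgroup.mem_subgroupOf, Subgroup.mem_centralizer_singleton_iff] at hsC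
  exact hsC

/-- **`Z*`-theorem in the form used here.** -/
theorem sup_oddCore_eq_top_of_isolated {j : G} (hj : orderOf j = 2)
    (iso : ∀ g : G, (g * j * g⁻¹) * j = j * (g * j * g⁻¹) → g * j * g⁻¹ = j) :
    Subgroup.centralizer ({j} : Set G) ⊔ Cfsg.oddCore G = ⊤ := by
  classical
  haveI : Fact (Nat.Prime 2) := ⟨Nat.prime_two⟩
  have hj2 : j * j = 1 := by
    rw [← pow_two, ← hj]
    exact pow_orderOf_eq_one j
  have hjinv : j⁻¹ = j := inv_eq_of_mul_eq_one_left hj2
  have hzp : IsPGroup 2 (Subgroup.zpowers j) := by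
    apply IsPGroup.of_card (n := 1)
    rw [Nat.card_zpowers, hj]
    rfl
  obtain ⟨P, hP⟩ := hzp.exists_le_sylow
  have hjP : j ∈ (P : Subgroup G) := hP (Subgroup.mem_zpowers j)
  have hcen : ∀ s ∈ (P : Subgroup G), s * j = j * s := fun s hs =>
    central_of_isolated P.isPGroup' hjP iso hs
  obtain ⟨N, hNn, hNo, hN⟩ := Cfsg.Agent.S0215.result P j hj hjP (by
    intro g hg
    apply iso
    exact hcen _ hg)
  have hNle : N ≤ Cfsg.oddCore G := by
    exact Cfsg.Agent.Lib.Core.Basic.le_pPrimeCore hNn (Nat.coprime_two_right.mpr hNo)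
  rw [eq_top_iff]
  intro g _
  set x := g * j * g⁻¹ with hx
  have hx2 : x * x = 1 := by
    rw [hx]
    calc g * j * g⁻¹ * (g * j * g⁻¹) = g * (j * j) * g⁻¹ := by group
      _ = 1 := by rw [hj2]; group
  -- `y = j x ∈ N`
  set y := j * x with hy
  have hyN : y ∈ N := by
    have := hN g
    have e : j * g * j⁻¹ * g⁻¹ = y := by
      rw [hy, hx, hjinv]
      group
    rwa [e] at this
  obtain ⟨k, hk⟩ := hNo
  set r := y ^ (k + 1) with hr
  have hrN : r ∈ N := N.pow_mem hyN _
  have hy1 : y ^ (2 * k + 1) = 1 := by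
    have := pow_card_eq_one' (x := (⟨y, hyN⟩ : N))
    rw [hk] at this
    exact congrArg Subtype.val this
  have hr2 : r * r = y := by
    rw [hr, ← pow_add]
    have : k + 1 + (k + 1) = (2 * k + 1) + 1 := by ring
    rw [this, pow_succ, hy1, one_mul]
  have hjy : j * y * j = y⁻¹ := by
    rw [hy]
    have hxinv : x⁻¹ = x := inv_eq_of_mul_eq_one_left hx2
    rw [mul_inv_rev, hxinv, hjinv]
    calc j * (j * x) * j = (j * j) * x * j := by group
      _ = x * j := by rw [hj2, one_mul]
  have hjr : j * r * j = r⁻¹ := by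
    have e : ∀ m : ℕ, j * y ^ m * j = (y⁻¹) ^ m := by
      intro m
      induction m with
      | zero => simp [hj2]
      | succ m ih =>
        calc j * y ^ (m + 1) * j = (j * y ^ m * j) * (j * y * j) := by
              rw [pow_succ]
              calc j * (y ^ m * y) * j = j * y ^ m * (j * j) * y * j := by rw [hj2]; group
                _ = _ := by group
          _ = (y⁻¹) ^ (m + 1) := by rw [ih, hjy, pow_succ]
    rw [hr, e, inv_pow]
  -- `x = r⁻¹ j r`
  have hxr : x = r⁻¹ * j * r := by
    have e1 : j * r = r⁻¹ * j := by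
      calc j * r = (j * r * j) * j := by
            calc j * r = j * r * (j * j) := by rw [hj2, mul_one]
              _ = _ := by group
        _ = r⁻¹ * j := by rw [hjr]
    have e2 : r⁻¹ * j * r = r⁻¹ * (j * r) := by group
    rw [e2, e1]
    have e3 : r⁻¹ * (r⁻¹ * j) = (r * r)⁻¹ * j := by group
    rw [e3, hr2, hy]
    have hxinv : x⁻¹ = x := inv_eq_of_mul_eq_one_left hx2
    rw [mul_inv_rev, hxinv, hjinv]
    calc x = x * (j * j) := by rw [hj2, mul_one]
      _ = x * j * j := by group
  -- conclusion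
  have hrg : r * g ∈ Subgroup.centralizer ({j} : Set G) := by
    rw [Subgroup.mem_centralizer_singleton_iff]
    have : g * j * g⁻¹ = r⁻¹ * j * r := hxr
    calc r * g * j = r * (g * j * g⁻¹) * g := by group
      _ = r * (r⁻¹ * j * r) * g := by rw [this]
      _ = j * (r * g) := by group
  have e : g = r⁻¹ * (r * g) := by group
  rw [e]
  exact Subgroup.mul_mem _
    ((le_sup_right : Cfsg.oddCore G ≤ _) (hNle (N.inv_mem hrN)))
    ((le_sup_left : Subgroup.centralizer ({j} : Set G) ≤ _) hrg)

end Cfsg.Agent.Lib.SL2Pair
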