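import Mathlib

/-!
# Elementary facts on `SL₂(F)`, `F` a finite field of odd order

For an element `a` with `a² = -1`: its centralizer is commutative, some element inverts `a`, and
every element inverting `a` squares to `-1` and inverts the centralizer of `a`.
-/

set_option autoImplicit false

namespace Cfsg.Agent.Lib.SL2Pair

open Matrix

variable {F : Type*} [Field F] [Fintype F]

local notation "Λ" => Matrix.SpecialLinearGroup (Fin 2) F

theorem two_ne (hF : Odd (Fintype.card F)) : (2 : F) ≠ 0 := by
  intro h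
  have hch : ringChar F = 2 := by
    have := CharP.ringChar_of_prime_eq_zero (R := F) Nat.prime_two (by exact_mod_cast h)
    exact this
  have := FiniteField.even_card_iff_char_two.mp hch
  rcases hF with ⟨k, hk⟩
  omega

/-- Entries of a `2 × 2` matrix. -/
theorem mat_eq (A : Matrix (Fin 2) (Fin 2) F) : A = !![A 0 0, A 0 1; A 1 0, A 1 1] :=
  (Matrix.eta_fin_two A)

theorem det_coe (g : Λ) : g.1 0 0 * g.1 1 1 - g.1 0 1 * g.1 1 0 = 1 := by
  have := g.2
  rwa [Matrix.det_fin_two] at this

theorem mul_entries (A B : Matrix (Fin 2) (Fin 2) F) :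
    (A * B) 0 0 = A 0 0 * B 0 0 + A 0 1 * B 1 0 ∧ (A * B) 0 1 = A 0 0 * B 0 1 + A 0 1 * B 1 1 ∧
    (A * B) 1 0 = A 1 0 * B 0 0 + A 1 1 * B 1 0 ∧ (A * B) 1 1 = A 1 0 * B 0 1 + A 1 1 * B 1 1 := by
  simp [Matrix.mul_apply, Fin.sum_univ_two]

theorem mat_ext {A B : Matrix (Fin 2) (Fin 2) F} (h00 : A 0 0 = B 0 0) (h01 : A 0 1 = B 0 1)
    (h10 : A 1 0 = B 1 0) (h11 : A 1 1 = B 1 1) : A = B := by
  ext i j
  fin_cases i <;> fin_cases j <;> simpa

/-- Square one: `±1`. -/
theorem sq_one (hF : Odd (Fintype.card F)) {g : Λ} (hg : g ^ 2 = 1) :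
    g = 1 ∨ g.1 = -1 := by
  have h2 := two_ne hF
  have hm : g.1 * g.1 = 1 := by
    have := congrArg (fun x : Λ => x.1) hg
    simpa [pow_two] using this
  obtain ⟨e00, e01, e10, e11⟩ := mul_entries g.1 g.1
  have d := det_coe g
  rw [hm] at e00 e01 e10 e11
  simp only [Matrix.one_apply_eq, Matrix.one_apply_ne (by decide : (0 : Fin 2) ≠ 1),
    Matrix.one_apply_ne (by decide : (1 : Fin 2) ≠ 0)] at e00 e01 e10 e11
  -- `p + s` kills `q, r`, and `(p - s)(p + s) = 0`
  set p := g.1 0 0
  set q := g.1 0 1
  set r := g.1 1 0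
  set s := g.1 1 1
  have hq : (p + s) * q = 0 := by linear_combination -e01
  have hr : (p + s) * r = 0 := by linear_combination -e10
  -- if `p + s = 0` then `p² + qr = 1` and `ps - qr = 1` give `0 = 2`
  have hne : p + s ≠ 0 := by
    intro h
    have hs : s = -p := by linear_combination h
    rw [hs] at d
    apply h2
    linear_combination e00 - d
  have hq0 : q = 0 := by
    rcases mul_eq_zero.mp hq with h | h
    · exact absurd h hne
    · exact h
  have hr0 : r = 0 := by
    rcases mul_eq_zero.mp hr with h | h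
    · exact absurd h hne
    · exact h
  have hd : p * s = 1 := by rw [hq0] at d; linear_combination d
  have hp0 : p ≠ 0 := by
    rintro h
    rw [h] at hd
    simp at hd
  have hs : s = p := by
    have hpp : p * p = 1 := by rw [hq0] at e00; linear_combination -e00
    have : p * (p - s) = 0 := by linear_combination hpp - hd
    rcases mul_eq_zero.mp this with h | h
    · exact absurd h hp0
    · linear_combination -h
  have hp2 : (p - 1) * (p + 1) = 0 := by
    rw [hs] at hd
    linear_combination hd
  rcases mul_eq_zero.mp hp2 with h | h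
  · left
    apply Subtype.ext
    apply mat_ext
    · simp only [Matrix.SpecialLinearGroup.coe_one, Matrix.one_apply_eq]
      change p = 1
      linear_combination h
    · simp only [Matrix.SpecialLinearGroup.coe_one]
      change q = _
      rw [hq0]; simp
    · simp only [Matrix.SpecialLinearGroup.coe_one]
      change r = _
      rw [hr0]; simp
    · simp only [Matrix.SpecialLinearGroup.coe_one, Matrix.one_apply_eq]
      change s = 1
      rw [hs]
      linear_combination h
  · right
    apply mat_ext
    · simp only [Matrix.neg_apply, Matrix.one_apply_eq]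
      change p = -1
      linear_combination h
    · simp only [Matrix.neg_apply]
      change q = _
      rw [hq0]; simp
    · simp only [Matrix.neg_apply]
      change r = _
      rw [hr0]; simp
    · simp only [Matrix.neg_apply, Matrix.one_apply_eq]
      change s = -1
      rw [hs]
      linear_combination h

/-- Normal form of `a` with `a² = -1`. -/
theorem sq_neg_entries (a : Λ) (ha : a.1 * a.1 = -1) :
    a.1 1 1 = -a.1 0 0 ∧ a.1 0 0 * a.1 0 0 + a.1 0 1 * a.1 1 0 = -1 := by
  obtain ⟨e00, e01, e10, e11⟩ := mul_entries a.1 a.1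
  have d := det_coe a
  rw [ha] at e00 e01 e10 e11
  simp only [Matrix.neg_apply, Matrix.one_apply_eq, Matrix.one_apply_ne (by decide : (0 : Fin 2) ≠ 1),
    Matrix.one_apply_ne (by decide : (1 : Fin 2) ≠ 0), neg_zero] at e00 e01 e10 e11
  set p := a.1 0 0
  set q := a.1 0 1
  set r := a.1 1 0
  set s := a.1 1 1
  have hq : (p + s) * q = 0 := by linear_combination -e01
  have hr : (p + s) * r = 0 := by linear_combination -e10
  have hps : p * (p + s) = 0 := by linear_combination -e00 + d
  have hps' : s * (p + s) = 0 := by linear_combination -e11 + d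
  refine ⟨?_, by linear_combination -e00⟩
  by_contra hne
  have hne' : p + s ≠ 0 := fun h => hne (by linear_combination h)
  have hq0 : q = 0 := (mul_eq_zero.mp hq).resolve_left hne'
  have hp0 : p = 0 := (mul_eq_zero.mp hps).resolve_right hne'
  have hs0 : s = 0 := (mul_eq_zero.mp hps').resolve_right hne'
  rw [hp0, hs0, hq0] at d
  simp at d

/-- An element commuting with `a`, `a² = -1`, is a polynomial in `a`. -/
theorem exists_repr (hF : Odd (Fintype.card F)) (a c : Λ) (ha : a.1 * a.1 = -1)
    (hc : c.1 * a.1 = a.1 * c.1) :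
    ∃ l m : F, c.1 = l • (1 : Matrix (Fin 2) (Fin 2) F) + m • a.1 := by
  have h2 := two_ne hF
  obtain ⟨hs, hd⟩ := sq_neg_entries a ha
  obtain ⟨e00, e01, e10, e11⟩ := mul_entries c.1 a.1
  obtain ⟨f00, f01, f10, f11⟩ := mul_entries a.1 c.1
  rw [hc, f00] at e00
  rw [hc, f01] at e01
  rw [hc, f10] at e10
  rw [hc, f11] at e11
  set p := a.1 0 0
  set q := a.1 0 1
  set r := a.1 1 0
  set x := c.1 0 0
  set y := c.1 0 1
  set z := c.1 1 0
  set w := c.1 1 1
  rw [hs] at e01 e10 e11
  have k1 : y * r = q * z := by linear_combination -e00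
  have k2 : q * (x - w) = 2 * p * y := by linear_combination -e01
  have k3 : r * (x - w) = 2 * p * z := by linear_combination e10
  refine ⟨(x + w) / 2, ?_⟩
  have fin : ∀ m : F, m * q = y → m * r = z → 2 * (m * p) = x - w →
      c.1 = ((x + w) / 2) • (1 : Matrix (Fin 2) (Fin 2) F) + m • a.1 := by
    intro m h1 h2' h3
    apply mat_ext
    · simp only [Matrix.add_apply, Matrix.smul_apply, Matrix.one_apply_eq, smul_eq_mul, mul_one]
      change x = (x + w) / 2 + m * p
      field_simp
      linear_combination -h3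
    · simp only [Matrix.add_apply, Matrix.smul_apply, smul_eq_mul,
        Matrix.one_apply_ne (by decide : (0 : Fin 2) ≠ 1), mul_zero, zero_add]
      change y = m * q
      exact h1.symm
    · simp only [Matrix.add_apply, Matrix.smul_apply, smul_eq_mul,
        Matrix.one_apply_ne (by decide : (1 : Fin 2) ≠ 0), mul_zero, zero_add]
      change z = m * r
      exact h2'.symm
    · simp only [Matrix.add_apply, Matrix.smul_apply, Matrix.one_apply_eq, smul_eq_mul, mul_one]
      rw [hs]
      change w = (x + w) / 2 + m * (-p)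
      field_simp
      linear_combination h3
  by_cases hq : q = 0
  · by_cases hr : r = 0
    · have hp : p ≠ 0 := by
        rintro hp
        rw [hp, hq] at hd
        have : (1 : F) = 0 := by linear_combination hd
        exact one_ne_zero this
      have hy : y = 0 := by
        rw [hq] at k2
        have : 2 * p * y = 0 := by linear_combination -k2
        rcases mul_eq_zero.mp this with h | h
        · exact absurd h (mul_ne_zero h2 hp)
        · exact h
      have hz : z = 0 := by
        rw [hr] at k3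
        have : 2 * p * z = 0 := by linear_combination -k3
        rcases mul_eq_zero.mp this with h | h
        · exact absurd h (mul_ne_zero h2 hp)
        · exact h
      refine ⟨(x - w) / (2 * p), fin _ ?_ ?_ ?_⟩
      · rw [hq, hy]; ring
      · rw [hr, hz]; ring
      · field_simp
    · refine ⟨z / r, fin _ ?_ ?_ ?_⟩
      · field_simp
        rw [hq] at k1 ⊢
        have : y * r = 0 := by linear_combination k1
        rcases mul_eq_zero.mp this with h | h
        · rw [h]; ring
        · exact absurd h hr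
      · field_simp
      · field_simp
        linear_combination -k3
  · refine ⟨y / q, fin _ ?_ ?_ ?_⟩
    · field_simp
    · field_simp
      linear_combination k1
    · field_simp
      linear_combination -k2

/-- The centralizer of `a` is commutative. -/
theorem comm_of_commute (hF : Odd (Fintype.card F)) (a c d : Λ) (ha : a.1 * a.1 = -1)
    (hc : c * a = a * c) (hd : d * a = a * d) : c * d = d * c := by
  have hc' : c.1 * a.1 = a.1 * c.1 := by
    have := congrArg (fun x : Λ => x.1) hc
    simpa using this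
  have hd' : d.1 * a.1 = a.1 * d.1 := by
    have := congrArg (fun x : Λ => x.1) hd
    simpa using this
  obtain ⟨l, m, e⟩ := exists_repr hF a c ha hc'
  obtain ⟨l', m', e'⟩ := exists_repr hF a d ha hd'
  apply Subtype.ext
  change c.1 * d.1 = d.1 * c.1
  rw [e, e']
  simp only [mul_add, add_mul, smul_mul_assoc, mul_smul_comm, mul_one, one_mul]
  module

/-- An element inverting `a` squares to `-1`. -/
theorem anti_sq (hF : Odd (Fintype.card F)) (a u : Λ) (ha : a.1 * a.1 = -1)
    (hu : u.1 * a.1 = -(a.1 * u.1)) : u.1 * u.1 = -1 := by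
  have h2 := two_ne hF
  obtain ⟨hs, hd⟩ := sq_neg_entries a ha
  obtain ⟨e00, e01, e10, e11⟩ := mul_entries u.1 a.1
  obtain ⟨f00, f01, f10, f11⟩ := mul_entries a.1 u.1
  have g00 := congrFun (congrFun hu 0) 0
  have g01 := congrFun (congrFun hu 0) 1
  have g10 := congrFun (congrFun hu 1) 0
  have g11 := congrFun (congrFun hu 1) 1
  simp only [Matrix.neg_apply] at g00 g01 g10 g11
  rw [e00, f00] at g00
  rw [e01, f01] at g01
  rw [e10, f10] at g10
  rw [e11, f11] at g11
  have d := det_coe u
  set p := a.1 0 0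
  set q := a.1 0 1
  set r := a.1 1 0
  set x := u.1 0 0
  set y := u.1 0 1
  set z := u.1 1 0
  set w := u.1 1 1
  rw [hs] at g01 g10 g11
  have kq : q * (x + w) = 0 := by linear_combination g01
  have kr : r * (x + w) = 0 := by linear_combination g10
  have kp : 2 * (p * (x + w)) = 0 := by linear_combination g00 - g11
  have hw : x + w = 0 := by
    by_contra hne
    have hq0 : q = 0 := (mul_eq_zero.mp kq).resolve_right hne
    have hp0 : p = 0 := by
      rcases mul_eq_zero.mp kp with h | h
      · exact absurd h h2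
      · exact (mul_eq_zero.mp h).resolve_right hne
    rw [hq0, hp0] at hd
    have : (1 : F) = 0 := by linear_combination hd
    exact one_ne_zero this
  have hw' : w = -x := by linear_combination hw
  rw [hw'] at d
  obtain ⟨m00, m01, m10, m11⟩ := mul_entries u.1 u.1
  apply mat_ext
  · rw [m00]
    simp only [Matrix.neg_apply, Matrix.one_apply_eq]
    change x * x + y * z = -1
    linear_combination -d
  · rw [m01]
    simp only [Matrix.neg_apply, Matrix.one_apply_ne (by decide : (0 : Fin 2) ≠ 1), neg_zero]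
    change x * y + y * w = 0
    rw [hw']; ring
  · rw [m10]
    simp only [Matrix.neg_apply, Matrix.one_apply_ne (by decide : (1 : Fin 2) ≠ 0), neg_zero]
    change z * x + w * z = 0
    rw [hw']; ring
  · rw [m11]
    simp only [Matrix.neg_apply, Matrix.one_apply_eq]
    change z * y + w * w = -1
    rw [hw']
    linear_combination -d

/-- An element inverting `a` inverts the centralizer of `a`. -/
theorem anti_inv (hF : Odd (Fintype.card F)) (a u c : Λ) (ha : a.1 * a.1 = -1)
    (hu : u.1 * a.1 = -(a.1 * u.1)) (hc : c * a = a * c) : u * c * u⁻¹ = c⁻¹ := by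
  have hc' : c.1 * a.1 = a.1 * c.1 := by
    have := congrArg (fun x : Λ => x.1) hc
    simpa using this
  obtain ⟨hs, hd⟩ := sq_neg_entries a ha
  obtain ⟨l, m, e⟩ := exists_repr hF a c ha hc'
  -- determinant of `c`
  have hdet : l * l + m * m = 1 := by
    have d := det_coe c
    rw [e] at d
    simp only [Matrix.add_apply, Matrix.smul_apply, Matrix.one_apply_eq, smul_eq_mul, mul_one,
      Matrix.one_apply_ne (by decide : (0 : Fin 2) ≠ 1),
      Matrix.one_apply_ne (by decide : (1 : Fin 2) ≠ 0), mul_zero, zero_add] at d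
    rw [hs] at d
    linear_combination d + m * m * hd
  -- `(l - m a) c = 1`
  have h1 : (l • (1 : Matrix (Fin 2) (Fin 2) F) - m • a.1) * c.1 = 1 := by
    rw [e]
    simp only [mul_add, sub_mul, smul_mul_assoc, mul_smul_comm, mul_one, one_mul, ha]
    have : l • (l • (1 : Matrix (Fin 2) (Fin 2) F) - m • a.1) + m • (l • a.1 - m • (-1)) =
        (l * l + m * m) • (1 : Matrix (Fin 2) (Fin 2) F) := by
      module
    rw [this, hdet, one_smul]
  -- `u c = (l - m a) u`
  have h2 : u.1 * c.1 = (l • (1 : Matrix (Fin 2) (Fin 2) F) - m • a.1) * u.1 := by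
    rw [e]
    simp only [mul_add, sub_mul, smul_mul_assoc, mul_smul_comm, mul_one, one_mul, hu]
    module
  -- conclusion
  have h3 : (c⁻¹).1 = l • (1 : Matrix (Fin 2) (Fin 2) F) - m • a.1 := by
    have h5 : c.1 * (c⁻¹).1 = 1 := by
      change (c * c⁻¹).1 = 1
      rw [mul_inv_cancel]
      rfl
    calc (c⁻¹).1 = (l • (1 : Matrix (Fin 2) (Fin 2) F) - m • a.1) * c.1 * (c⁻¹).1 := by
          rw [h1, one_mul]
      _ = _ := by rw [mul_assoc, h5, mul_one]
  have h6 : u * c = c⁻¹ * u := by
    apply Subtype.ext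
    change u.1 * c.1 = (c⁻¹).1 * u.1
    rw [h2, h3]
  calc u * c * u⁻¹ = c⁻¹ * u * u⁻¹ := by rw [h6]
    _ = c⁻¹ := by group

/-- Existence of an element inverting `a`. -/
theorem exists_anti (hF : Odd (Fintype.card F)) (a : Λ) (ha : a.1 * a.1 = -1) :
    ∃ u : Λ, u.1 * a.1 = -(a.1 * u.1) := by
  classical
  have h2 := two_ne hF
  obtain ⟨hs, hd⟩ := sq_neg_entries a ha
  -- a matrix `w` of determinant `-1` anticommuting with `a`
  obtain ⟨w, hw, hwd⟩ : ∃ w : Matrix (Fin 2) (Fin 2) F, w * a.1 = -(a.1 * w) ∧ w.det = -1 := by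
    set p := a.1 0 0 with hp
    set q := a.1 0 1 with hq
    set r := a.1 1 0 with hr
    have ha' : a.1 = !![p, q; r, -p] := by
      rw [← hs]
      exact mat_eq a.1
    by_cases hq0 : q = 0
    · by_cases hr0 : r = 0
      · refine ⟨!![0, 1; 1, 0], ?_, by simp [Matrix.det_fin_two]⟩
        rw [ha', hq0, hr0]
        ext i j
        fin_cases i <;> fin_cases j <;> simp [Matrix.mul_apply, Fin.sum_univ_two]
      · refine ⟨!![1, -2 * p / r; 0, -1], ?_, by simp [Matrix.det_fin_two]⟩
        rw [ha', hq0]
        rw [hq0] at hd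
        have hpp : p * p = -1 := by linear_combination hd
        ext i j
        fin_cases i <;> fin_cases j <;> simp [Matrix.mul_apply, Fin.sum_univ_two] <;> field_simp <;> ring
    · refine ⟨!![1, 0; -2 * p / q, -1], ?_, by simp [Matrix.det_fin_two]⟩
      rw [ha']
      ext i j
      fin_cases i <;> fin_cases j <;> simp [Matrix.mul_apply, Fin.sum_univ_two] <;> field_simp <;> ring
  -- sums of squares
  obtain ⟨s₀, t₀, hst⟩ : ∃ s₀ t₀ : F, s₀ * s₀ + t₀ * t₀ = -1 := by
    have hodd : Fintype.card F % 2 = 1 := Nat.odd_iff.mp hF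
    have := FiniteField.exists_root_sum_quadratic (R := F)
      (f := Polynomial.X ^ 2) (g := Polynomial.X ^ 2 + 1)
      (by simp) (by
        rw [Polynomial.degree_add_eq_left_of_degree_lt] <;> simp) hodd
    obtain ⟨x, y, h⟩ := this
    refine ⟨x, y, ?_⟩
    simp at h
    linear_combination h
  let U : Matrix (Fin 2) (Fin 2) F := (s₀ • (1 : Matrix (Fin 2) (Fin 2) F) + t₀ • a.1) * w
  have hU : U.det = 1 := by
    change ((s₀ • (1 : Matrix (Fin 2) (Fin 2) F) + t₀ • a.1) * w).det = 1
    rw [Matrix.det_mul, hwd]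
    have : (s₀ • (1 : Matrix (Fin 2) (Fin 2) F) + t₀ • a.1).det = s₀ * s₀ + t₀ * t₀ := by
      rw [Matrix.det_fin_two]
      simp only [Matrix.add_apply, Matrix.smul_apply, Matrix.one_apply_eq, smul_eq_mul, mul_one,
        Matrix.one_apply_ne (by decide : (0 : Fin 2) ≠ 1),
        Matrix.one_apply_ne (by decide : (1 : Fin 2) ≠ 0), mul_zero, zero_add]
      rw [hs]
      linear_combination -t₀ * t₀ * hd
    rw [this, hst]
    ring
  refine ⟨⟨U, hU⟩, ?_⟩
  change U * a.1 = -(a.1 * U)
  change (s₀ • (1 : Matrix (Fin 2) (Fin 2) F) + t₀ • a.1) * w * a.1 =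
    -(a.1 * ((s₀ • (1 : Matrix (Fin 2) (Fin 2) F) + t₀ • a.1) * w))
  rw [mul_assoc, hw]
  simp only [mul_add, add_mul, smul_mul_assoc, mul_smul_comm, mul_one, one_mul, mul_neg, neg_add]

theorem inv_coe (A : Λ) (hA : A.1 * A.1 = -1) : (A⁻¹).1 = -A.1 := by
  have h5 : A.1 * (A⁻¹).1 = 1 := by
    change (A * A⁻¹).1 = 1
    rw [mul_inv_cancel]
    rfl
  calc (A⁻¹).1 = -(A.1 * A.1) * (A⁻¹).1 := by rw [hA, neg_neg, one_mul]
    _ = -A.1 * (A.1 * (A⁻¹).1) := by rw [neg_mul, neg_mul, mul_assoc]
    _ = -A.1 := by rw [h5, mul_one]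

theorem anti_iff (A U : Λ) (hA : A.1 * A.1 = -1) :
    U * A * U⁻¹ = A⁻¹ ↔ U.1 * A.1 = -(A.1 * U.1) := by
  constructor
  · intro h
    have h1 : U * A = A⁻¹ * U := by rw [← h]; group
    have h2 := congrArg (fun x : Λ => x.1) h1
    have h3 : U.1 * A.1 = (A⁻¹).1 * U.1 := h2
    rw [h3, inv_coe A hA, neg_mul]
  · intro h
    have h1 : U * A = A⁻¹ * U := by
      apply Subtype.ext
      change U.1 * A.1 = (A⁻¹).1 * U.1
      rw [h, inv_coe A hA, neg_mul]
    rw [h1]
    group

end Cfsg.Agent.Lib.SL2Pair
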