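import Mathlib
import Cfsg.Prelude.Def_CaseTheorems
import Cfsg.Agent.Lib.SL2Pair.SLFacts

/-!
# Pairs of commuting `SL₂`'s whose centre is isolated

`Pkg L₁ L₂ j n` records the data of two commuting `SL₂`'s meeting in `⟨j⟩`, with `C(j) = L₁L₂⟨n⟩`
and `n² = j` interchanging `L₁` and `L₂`.  Two such packages cannot have commuting centres.
-/

set_option autoImplicit false
set_option linter.unusedSectionVars false

namespace Cfsg.Agent.Lib.SL2Pair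

variable {G : Type*} [Group G]

/-- The facts on `SL₂(q)` used below, with `j` the central involution. -/
structure SLF (L : Subgroup G) (j : G) : Prop where
  inv : ∀ g ∈ L, g ^ 2 = 1 → g = 1 ∨ g = j
  comm : ∀ a ∈ L, a ^ 2 = j → ∀ c ∈ L, ∀ d ∈ L, c * a = a * c → d * a = a * d → c * d = d * c
  ex : ∀ a ∈ L, a ^ 2 = j → ∃ u ∈ L, u * a * u⁻¹ = a⁻¹
  sq : ∀ a ∈ L, a ^ 2 = j → ∀ u ∈ L, u * a * u⁻¹ = a⁻¹ → u ^ 2 = j
  anti : ∀ a ∈ L, a ^ 2 = j → ∀ u ∈ L, u * a * u⁻¹ = a⁻¹ → ∀ c ∈ L, c * a = a * c → u * c * u⁻¹ = c⁻¹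

theorem SLF.map {L : Subgroup G} {j : G} (h : SLF L j) (φ : G ≃* G) :
    SLF (L.map φ.toMonoidHom) (φ j) := by
  constructor
  · rintro _ ⟨g, hg, rfl⟩ h2
    change φ g ^ 2 = 1 at h2
    rw [← map_pow, map_eq_one_iff _ φ.injective] at h2
    rcases h.inv g hg h2 with e | e
    · left
      change φ g = 1
      rw [e, map_one]
    · right
      change φ g = φ j
      rw [e]
  · rintro _ ⟨a, ha, rfl⟩ h2 _ ⟨c, hc, rfl⟩ _ ⟨d, hd, rfl⟩ e1 e2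
    change φ a ^ 2 = φ j at h2
    change φ c * φ a = φ a * φ c at e1
    change φ d * φ a = φ a * φ d at e2
    change φ c * φ d = φ d * φ c
    rw [← map_pow] at h2
    rw [← map_mul, ← map_mul] at e1 e2 ⊢
    exact congrArg φ (h.comm a ha (φ.injective h2) c hc d hd (φ.injective e1) (φ.injective e2))
  · rintro _ ⟨a, ha, rfl⟩ h2
    change φ a ^ 2 = φ j at h2
    rw [← map_pow] at h2
    obtain ⟨u, hu, e⟩ := h.ex a ha (φ.injective h2)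
    refine ⟨φ u, ⟨u, hu, rfl⟩, ?_⟩
    change φ u * φ a * (φ u)⁻¹ = (φ a)⁻¹
    rw [← map_inv, ← map_mul, ← map_mul, e, map_inv]
  · rintro _ ⟨a, ha, rfl⟩ h2 _ ⟨u, hu, rfl⟩ e
    change φ a ^ 2 = φ j at h2
    change φ u * φ a * (φ u)⁻¹ = (φ a)⁻¹ at e
    rw [← map_pow] at h2
    rw [← map_inv, ← map_mul, ← map_mul, ← map_inv] at e
    change φ u ^ 2 = φ j
    rw [← map_pow, h.sq a ha (φ.injective h2) u hu (φ.injective e)]
  · rintro _ ⟨a, ha, rfl⟩ h2 _ ⟨u, hu, rfl⟩ e _ ⟨c, hc, rfl⟩ e1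
    change φ a ^ 2 = φ j at h2
    change φ u * φ a * (φ u)⁻¹ = (φ a)⁻¹ at e
    change φ c * φ a = φ a * φ c at e1
    rw [← map_pow] at h2
    rw [← map_inv, ← map_mul, ← map_mul, ← map_inv] at e
    rw [← map_mul, ← map_mul] at e1
    change φ u * φ c * (φ u)⁻¹ = (φ c)⁻¹
    rw [← map_inv, ← map_mul, ← map_mul,
      h.anti a ha (φ.injective h2) u hu (φ.injective e) c hc (φ.injective e1), map_inv]

section Equiv

variable {F : Type*} [Field F] [Fintype F]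

/-- Transport of the facts from `SL₂(F)`. -/
theorem SLF.of_equiv (hF : Odd (Fintype.card F)) {L : Subgroup G}
    (e : ↥L ≃* Matrix.SpecialLinearGroup (Fin 2) F) {j : G} (hjL : j ∈ L) (hj2 : j ^ 2 = 1)
    (hj1 : j ≠ 1) : SLF L j := by
  set m := e ⟨j, hjL⟩ with hm
  have hm2 : m ^ 2 = 1 := by
    rw [hm, ← map_pow]
    have : (⟨j, hjL⟩ : ↥L) ^ 2 = 1 := Subtype.ext hj2
    rw [this, map_one]
  have hm1 : m ≠ 1 := by
    intro h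
    rw [hm, map_eq_one_iff _ e.injective] at h
    exact hj1 (congrArg Subtype.val h)
  have hmc : m.1 = -1 := (sq_one hF hm2).resolve_left hm1
  -- translation
  have hsq : ∀ a ∈ L, ∀ ha : a ∈ L, a ^ 2 = j → (e ⟨a, ha⟩).1 * (e ⟨a, ha⟩).1 = -1 := by
    intro a _ ha h2
    have h3 : (⟨a, ha⟩ : ↥L) * ⟨a, ha⟩ = ⟨j, hjL⟩ := Subtype.ext (by simp [← h2, pow_two])
    have h4 : e ⟨a, ha⟩ * e ⟨a, ha⟩ = m := by rw [← map_mul, h3]
    have h5 := congrArg (fun x : Matrix.SpecialLinearGroup (Fin 2) F => x.1) h4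
    simpa [hmc] using h5
  have hcomm : ∀ a ∈ L, ∀ ha : a ∈ L, ∀ c, ∀ hc : c ∈ L, c * a = a * c →
      e ⟨c, hc⟩ * e ⟨a, ha⟩ = e ⟨a, ha⟩ * e ⟨c, hc⟩ := by
    intro a _ ha c hc h
    rw [← map_mul, ← map_mul]
    exact congrArg e (Subtype.ext h)
  have hback : ∀ x y : ↥L, e x = e y → (x : G) = y := fun x y h =>
    congrArg Subtype.val (e.injective h)
  constructor
  · intro g hg h2
    have h3 : (e ⟨g, hg⟩) ^ 2 = 1 := by
      rw [← map_pow]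
      have : (⟨g, hg⟩ : ↥L) ^ 2 = 1 := Subtype.ext h2
      rw [this, map_one]
    rcases sq_one hF h3 with h4 | h4
    · left
      rw [map_eq_one_iff _ e.injective] at h4
      exact congrArg Subtype.val h4
    · right
      have : e ⟨g, hg⟩ = m := Subtype.ext (by rw [h4, hmc])
      exact hback _ _ this
  · intro a ha h2 c hc d hd e1 e2
    have := comm_of_commute hF (e ⟨a, ha⟩) (e ⟨c, hc⟩) (e ⟨d, hd⟩) (hsq a ha ha h2)
      (hcomm a ha ha c hc e1) (hcomm a ha ha d hd e2)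
    rw [← map_mul, ← map_mul] at this
    exact congrArg Subtype.val (e.injective this)
  · intro a ha h2
    obtain ⟨U, hU⟩ := exists_anti hF (e ⟨a, ha⟩) (hsq a ha ha h2)
    have h1 := (anti_iff (e ⟨a, ha⟩) U (hsq a ha ha h2)).mpr hU
    refine ⟨(e.symm U : G), (e.symm U).2, ?_⟩
    have h3 : e ((e.symm U) * ⟨a, ha⟩ * (e.symm U)⁻¹) = e (⟨a, ha⟩⁻¹) := by
      rw [map_mul, map_mul, map_inv, map_inv, e.apply_symm_apply, h1]
    exact congrArg Subtype.val (e.injective h3)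
  · intro a ha h2 u hu h3
    have h4 : e ⟨u, hu⟩ * e ⟨a, ha⟩ * (e ⟨u, hu⟩)⁻¹ = (e ⟨a, ha⟩)⁻¹ := by
      rw [← map_inv, ← map_inv, ← map_mul, ← map_mul]
      exact congrArg e (Subtype.ext h3)
    have h5 := (anti_iff _ _ (hsq a ha ha h2)).mp h4
    have h6 := anti_sq hF _ _ (hsq a ha ha h2) h5
    have h7 : e ⟨u, hu⟩ * e ⟨u, hu⟩ = m := Subtype.ext (by
      change (e ⟨u, hu⟩).1 * (e ⟨u, hu⟩).1 = m.1
      rw [h6, hmc])
    rw [← map_mul] at h7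
    have h8 := e.injective h7
    have h9 := congrArg Subtype.val h8
    rw [pow_two]
    exact h9
  · intro a ha h2 u hu h3 c hc h4
    have h5 : e ⟨u, hu⟩ * e ⟨a, ha⟩ * (e ⟨u, hu⟩)⁻¹ = (e ⟨a, ha⟩)⁻¹ := by
      rw [← map_inv, ← map_inv, ← map_mul, ← map_mul]
      exact congrArg e (Subtype.ext h3)
    have h6 := (anti_iff _ _ (hsq a ha ha h2)).mp h5
    have h7 := anti_inv hF _ _ _ (hsq a ha ha h2) h6 (hcomm a ha ha c hc h4)
    rw [← map_inv, ← map_inv, ← map_mul, ← map_mul] at h7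
    exact congrArg Subtype.val (e.injective h7)

end Equiv

/-- The package. -/
structure Pkg (L₁ L₂ : Subgroup G) (j n : G) : Prop where
  hc : ∀ x ∈ L₁, ∀ y ∈ L₂, x * y = y * x
  j2 : j ^ 2 = 1
  j1 : j ≠ 1
  jL₁ : j ∈ L₁
  jL₂ : j ∈ L₂
  hm : ∀ x, x ∈ L₁ → x ∈ L₂ → x = 1 ∨ x = j
  hcov : ∀ g, g * j = j * g → (∃ a ∈ L₁, ∃ b ∈ L₂, g = a * b) ∨ (∃ a ∈ L₁, ∃ b ∈ L₂, g = a * b * n)
  nsq : n ^ 2 = j
  n₁ : ∀ x ∈ L₁, n * x * n⁻¹ ∈ L₂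
  n₂ : ∀ x ∈ L₂, n * x * n⁻¹ ∈ L₁
  s₁ : SLF L₁ j
  s₂ : SLF L₂ j

theorem Pkg.map {L₁ L₂ : Subgroup G} {j n : G} (P : Pkg L₁ L₂ j n) (φ : G ≃* G) :
    Pkg (L₁.map φ.toMonoidHom) (L₂.map φ.toMonoidHom) (φ j) (φ n) := by
  constructor
  · rintro _ ⟨x, hx, rfl⟩ _ ⟨y, hy, rfl⟩
    change φ x * φ y = φ y * φ x
    rw [← map_mul, ← map_mul, P.hc x hx y hy]
  · rw [← map_pow, P.j2, map_one]
  · intro h
    exact P.j1 ((map_eq_one_iff _ φ.injective).mp h)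
  · exact ⟨j, P.jL₁, rfl⟩
  · exact ⟨j, P.jL₂, rfl⟩
  · rintro _ ⟨x, hx, rfl⟩ ⟨y, hy, e⟩
    have : y = x := φ.injective e
    subst this
    rcases P.hm y hx hy with h | h
    · left
      change φ y = 1
      rw [h, map_one]
    · right
      change φ y = φ j
      rw [h]
  · intro g hg
    obtain ⟨g, rfl⟩ := φ.surjective g
    rw [← map_mul, ← map_mul] at hg
    rcases P.hcov g (φ.injective hg) with ⟨a, ha, b, hb, rfl⟩ | ⟨a, ha, b, hb, rfl⟩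
    · left
      exact ⟨φ a, ⟨a, ha, rfl⟩, φ b, ⟨b, hb, rfl⟩, map_mul _ _ _⟩
    · right
      refine ⟨φ a, ⟨a, ha, rfl⟩, φ b, ⟨b, hb, rfl⟩, ?_⟩
      rw [map_mul, map_mul]
  · rw [← map_pow, P.nsq]
  · rintro _ ⟨x, hx, rfl⟩
    refine ⟨n * x * n⁻¹, P.n₁ x hx, ?_⟩
    change φ (n * x * n⁻¹) = φ n * φ x * (φ n)⁻¹
    rw [map_mul, map_mul, map_inv]
  · rintro _ ⟨x, hx, rfl⟩
    refine ⟨n * x * n⁻¹, P.n₂ x hx, ?_⟩
    change φ (n * x * n⁻¹) = φ n * φ x * (φ n)⁻¹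
    rw [map_mul, map_mul, map_inv]
  · exact P.s₁.map φ
  · exact P.s₂.map φ

section Basic

variable {L₁ L₂ : Subgroup G} {j n : G} (P : Pkg L₁ L₂ j n)
include P

theorem Pkg.j_comm₁ {x : G} (hx : x ∈ L₁) : x * j = j * x := P.hc x hx j P.jL₂

theorem Pkg.j_comm₂ {x : G} (hx : x ∈ L₂) : x * j = j * x := (P.hc j P.jL₁ x hx).symm

theorem Pkg.j_inv : j⁻¹ = j := by
  have := P.j2
  rw [pow_two] at this
  exact inv_eq_of_mul_eq_one_left this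

theorem Pkg.mem_inter₁ {a b : G} (ha : a ∈ L₁) (hb : b ∈ L₂) (h : a = b) : a = 1 ∨ a = j :=
  P.hm a ha (h ▸ hb)

/-- No involution of `C(j)` in the coset `L₁L₂n`. -/
theorem Pkg.inv_mem_E {y : G} (hyj : y * j = j * y) (hy2 : y ^ 2 = 1) :
    ∃ a ∈ L₁, ∃ b ∈ L₂, y = a * b := by
  rcases P.hcov y hyj with h | ⟨a, ha, b, hb, rfl⟩
  · exact h
  exfalso
  have hn : n * n = j := by rw [← pow_two, P.nsq]
  have hnj : n * j = j * n := by rw [← hn, mul_assoc]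
  set a' := n * a * n⁻¹ with ha'
  set b' := n * b * n⁻¹ with hb'
  have ha'2 : a' ∈ L₂ := P.n₁ a ha
  have hb'2 : b' ∈ L₁ := P.n₂ b hb
  have hna : n * a = a' * n := by rw [ha']; group
  have hnb : n * b = b' * n := by rw [hb']; group
  -- `y² = (a b') (b a') j`
  have h1 : (a * b') * (b * a') * j = 1 := by
    have e1 : (a * b * n) ^ 2 = a * b * (a' * b') * (n * n) := by
      rw [pow_two]
      calc a * b * n * (a * b * n) = a * b * (n * a) * (b * n) := by group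
        _ = a * b * (a' * n) * (b * n) := by rw [hna]
        _ = a * b * a' * (n * b) * n := by group
        _ = a * b * a' * (b' * n) * n := by rw [hnb]
        _ = a * b * (a' * b') * (n * n) := by group
    have e2 : a * b * (a' * b') = (a * b') * (b * a') := by
      have c1 : b * b' = b' * b := (P.hc b' hb'2 b hb).symm
      have c2 : a' * b' = b' * a' := (P.hc b' hb'2 a' ha'2).symm
      calc a * b * (a' * b') = a * b * (b' * a') := by rw [c2]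
        _ = a * (b * b') * a' := by group
        _ = a * (b' * b) * a' := by rw [c1]
        _ = (a * b') * (b * a') := by group
    rw [hy2, e2, hn] at e1
    exact e1.symm
  set w₁ := a * b' with hw₁
  set w₂ := b * a' with hw₂
  have hw₁1 : w₁ ∈ L₁ := L₁.mul_mem ha hb'2
  have hw₂2 : w₂ ∈ L₂ := L₂.mul_mem hb ha'2
  have h2 : w₁ * w₂ = j := by
    have : w₁ * w₂ = j⁻¹ := eq_inv_of_mul_eq_one_left h1
    rw [this, P.j_inv]
  have hw₁2 : w₁ ∈ L₂ := by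
    have : w₁ = j * w₂⁻¹ := by rw [← h2]; group
    rw [this]
    exact L₂.mul_mem P.jL₂ (L₂.inv_mem hw₂2)
  -- `n w₂ n⁻¹ = b' a`
  have h3 : n * w₂ * n⁻¹ = b' * a := by
    have e : n * a' * n⁻¹ = a := by
      rw [ha']
      have : n * (n * a * n⁻¹) * n⁻¹ = (n * n) * a * (n * n)⁻¹ := by group
      rw [this, hn, P.j_inv, (P.j_comm₁ ha).symm, mul_assoc, ← pow_two, P.j2, mul_one]
    calc n * w₂ * n⁻¹ = (n * b * n⁻¹) * (n * a' * n⁻¹) := by rw [hw₂]; group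
      _ = b' * a := by rw [e]
  have hna1 : ∀ z : G, n * z * n⁻¹ = 1 → z = 1 := by
    intro z hz
    have : z = n⁻¹ * (n * z * n⁻¹) * n := by group
    rw [this, hz]
    group
  rcases P.hm w₁ hw₁1 hw₁2 with h4 | h4
  · -- `w₁ = 1`
    have hb'a : b' * a = 1 := by
      have : b' = a⁻¹ := by
        have : a * b' = 1 := h4
        exact (eq_inv_of_mul_eq_one_right this)
      rw [this]
      group
    have : w₂ = 1 := hna1 _ (by rw [h3, hb'a])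
    rw [h4, this, one_mul] at h2
    exact P.j1 h2.symm
  · -- `w₁ = j`
    have hw₂1 : w₂ = 1 := by
      rw [h4] at h2
      exact mul_eq_left.mp h2
    have hb'a : b' * a = j := by
      have e : b' * a = a⁻¹ * w₁ * a := by rw [hw₁]; group
      rw [e, h4, mul_assoc, ← P.j_comm₁ ha]
      group
    have : n * w₂ * n⁻¹ = 1 := by rw [hw₂1]; group
    rw [h3, hb'a] at this
    exact P.j1 this

/-- Decomposition of an involution of `C(j)` other than `j`. -/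
theorem Pkg.decomp {y : G} (hyj : y * j = j * y) (hy2 : y ^ 2 = 1) (hy1 : y ≠ 1) (hyne : y ≠ j) :
    ∃ a ∈ L₁, ∃ b ∈ L₂, y = a * b ∧ a ^ 2 = j ∧ b ^ 2 = j := by
  obtain ⟨a, ha, b, hb, rfl⟩ := P.inv_mem_E hyj hy2
  have hab : a * b = b * a := P.hc a ha b hb
  have h1 : a ^ 2 * b ^ 2 = 1 := by
    rw [← hy2, pow_two, pow_two, pow_two]
    calc a * a * (b * b) = a * (a * b) * b := by group
      _ = a * (b * a) * b := by rw [hab]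
      _ = a * b * (a * b) := by group
  have h2 : a ^ 2 ∈ L₂ := by
    have : a ^ 2 = (b ^ 2)⁻¹ := eq_inv_of_mul_eq_one_left h1
    rw [this]
    exact L₂.inv_mem (L₂.pow_mem hb 2)
  refine ⟨a, ha, b, hb, rfl, ?_⟩
  rcases P.hm _ (L₁.pow_mem ha 2) h2 with h3 | h3
  · exfalso
    have h4 : b ^ 2 = 1 := by rwa [h3, one_mul] at h1
    rcases P.s₁.inv a ha h3 with e | e <;> rcases P.s₂.inv b hb h4 with f | f
    · exact hy1 (by rw [e, f, one_mul])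
    · exact hyne (by rw [e, f, one_mul])
    · exact hyne (by rw [e, f, mul_one])
    · apply hy1
      rw [e, f, ← pow_two, P.j2]
  · refine ⟨h3, ?_⟩
    rw [h3] at h1
    have : b ^ 2 = j⁻¹ := eq_inv_of_mul_eq_one_right h1
    rw [this, P.j_inv]

end Basic

/-- Elements `c₁c₂` centralizing `a` and `b`. -/
def T1 (L₁ L₂ : Subgroup G) (a b y : G) : Prop :=
  ∃ c₁ ∈ L₁, ∃ c₂ ∈ L₂, y = c₁ * c₂ ∧ c₁ * a = a * c₁ ∧ c₂ * b = b * c₂

/-- Elements `c₁c₂` inverting `a` and `b`. -/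
def T2 (L₁ L₂ : Subgroup G) (a b y : G) : Prop :=
  ∃ c₁ ∈ L₁, ∃ c₂ ∈ L₂, y = c₁ * c₂ ∧ c₁ * a * c₁⁻¹ = a⁻¹ ∧ c₂ * b * c₂⁻¹ = b⁻¹

section Types

variable {L₁ L₂ : Subgroup G} {j n a b : G} (P : Pkg L₁ L₂ j n) (ha : a ∈ L₁) (hb : b ∈ L₂)
  (ha2 : a ^ 2 = j) (hb2 : b ^ 2 = j)
include P ha hb ha2 hb2

theorem Pkg.a_inv : a⁻¹ = a * j := by
  have h4 : a * (a * j) = 1 := by
    rw [← mul_assoc, ← pow_two, ha2, ← pow_two, P.j2]
  exact inv_eq_of_mul_eq_one_right h4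

theorem Pkg.b_inv : b⁻¹ = b * j := by
  have h4 : b * (b * j) = 1 := by
    rw [← mul_assoc, ← pow_two, hb2, ← pow_two, P.j2]
  exact inv_eq_of_mul_eq_one_right h4

/-- Elements of `L₁L₂` commuting with `ab`. -/
theorem Pkg.dichotomy {c₁ c₂ : G} (h1 : c₁ ∈ L₁) (h2 : c₂ ∈ L₂)
    (hcomm : (c₁ * c₂) * (a * b) = (a * b) * (c₁ * c₂)) :
    T1 L₁ L₂ a b (c₁ * c₂) ∨ T2 L₁ L₂ a b (c₁ * c₂) := by
  set A := c₁ * a * c₁⁻¹ with hA
  set B := c₂ * b * c₂⁻¹ with hB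
  have hA1 : A ∈ L₁ := L₁.mul_mem (L₁.mul_mem h1 ha) (L₁.inv_mem h1)
  have hB2 : B ∈ L₂ := L₂.mul_mem (L₂.mul_mem h2 hb) (L₂.inv_mem h2)
  have e1 : A * B = a * b := by
    have c1 : c₂ * a = a * c₂ := (P.hc a ha c₂ h2).symm
    have c2 : c₂ * c₁⁻¹ = c₁⁻¹ * c₂ := (P.hc _ (L₁.inv_mem h1) c₂ h2).symm
    have c3 : (c₁ * c₂) * (a * b) * (c₁ * c₂)⁻¹ = A * B := by
      rw [hA, hB]
      calc (c₁ * c₂) * (a * b) * (c₁ * c₂)⁻¹ = c₁ * (c₂ * a) * b * c₂⁻¹ * c₁⁻¹ := by group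
        _ = c₁ * (a * c₂) * b * c₂⁻¹ * c₁⁻¹ := by rw [c1]
        _ = c₁ * a * (c₂ * b * c₂⁻¹) * c₁⁻¹ := by group
        _ = c₁ * a * c₁⁻¹ * (c₁ * (c₂ * b * c₂⁻¹) * c₁⁻¹) := by group
        _ = c₁ * a * c₁⁻¹ * (c₂ * b * c₂⁻¹) := by
            rw [P.hc c₁ h1 _ (L₂.mul_mem (L₂.mul_mem h2 hb) (L₂.inv_mem h2))]
            group
    rw [← c3, hcomm]
    group
  have e2 : a⁻¹ * A = b * B⁻¹ := by
    calc a⁻¹ * A = a⁻¹ * (A * B) * B⁻¹ := by group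
      _ = a⁻¹ * (a * b) * B⁻¹ := by rw [e1]
      _ = b * B⁻¹ := by group
  have e3 : a⁻¹ * A ∈ L₁ := L₁.mul_mem (L₁.inv_mem ha) hA1
  have e4 : a⁻¹ * A ∈ L₂ := by
    rw [e2]
    exact L₂.mul_mem hb (L₂.inv_mem hB2)
  rcases P.hm _ e3 e4 with h | h
  · left
    refine ⟨c₁, h1, c₂, h2, rfl, ?_, ?_⟩
    · have : A = a := by
        have : a⁻¹ * A = 1 := h
        exact (inv_mul_eq_one.mp this).symm
      rw [hA] at this
      exact mul_inv_eq_iff_eq_mul.mp this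
    · have : b * B⁻¹ = 1 := by rw [← e2]; exact h
      have : B = b := by
        have := mul_inv_eq_one.mp this
        exact this.symm
      rw [hB] at this
      exact mul_inv_eq_iff_eq_mul.mp this
  · right
    refine ⟨c₁, h1, c₂, h2, rfl, ?_, ?_⟩
    · have : A = a * j := by
        calc A = a * (a⁻¹ * A) := by group
          _ = a * j := by rw [h]
      rw [hA] at this
      rw [this, P.a_inv ha hb ha2 hb2]
    · have h5 : b * B⁻¹ = j := by rw [← e2]; exact h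
      have h6 : B = j⁻¹ * b := by
        have : B⁻¹ = b⁻¹ * j := by
          calc B⁻¹ = b⁻¹ * (b * B⁻¹) := by group
            _ = b⁻¹ * j := by rw [h5]
        rw [← inv_inv B, this]
        group
      rw [hB] at h6
      rw [h6, P.j_inv, (P.j_comm₂ hb).symm, P.b_inv ha hb ha2 hb2]

theorem Pkg.T1_comm_j {y : G} (h : T1 L₁ L₂ a b y) : y * j = j * y := by
  obtain ⟨c₁, h1, c₂, h2, rfl, -, -⟩ := h
  rw [mul_assoc, P.j_comm₂ h2, ← mul_assoc, P.j_comm₁ h1, mul_assoc]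

theorem Pkg.T2_comm_j {y : G} (h : T2 L₁ L₂ a b y) : y * j = j * y := by
  obtain ⟨c₁, h1, c₂, h2, rfl, -, -⟩ := h
  rw [mul_assoc, P.j_comm₂ h2, ← mul_assoc, P.j_comm₁ h1, mul_assoc]

theorem Pkg.T1_comm_x {y : G} (h : T1 L₁ L₂ a b y) : y * (a * b) = (a * b) * y := by
  obtain ⟨c₁, h1, c₂, h2, rfl, e1, e2⟩ := h
  have c1 : c₂ * a = a * c₂ := (P.hc a ha c₂ h2).symm
  have c2 : c₁ * b = b * c₁ := P.hc c₁ h1 b hb
  calc c₁ * c₂ * (a * b) = c₁ * (c₂ * a) * b := by group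
    _ = c₁ * (a * c₂) * b := by rw [c1]
    _ = (c₁ * a) * (c₂ * b) := by group
    _ = (a * c₁) * (b * c₂) := by rw [e1, e2]
    _ = a * (c₁ * b) * c₂ := by group
    _ = a * (b * c₁) * c₂ := by rw [c2]
    _ = a * b * (c₁ * c₂) := by group

theorem Pkg.T2_comm_x {y : G} (h : T2 L₁ L₂ a b y) : y * (a * b) = (a * b) * y := by
  obtain ⟨c₁, h1, c₂, h2, rfl, e1, e2⟩ := h
  have c1 : c₂ * a = a * c₂ := (P.hc a ha c₂ h2).symm
  have c2 : c₁ * b⁻¹ = b⁻¹ * c₁ := P.hc c₁ h1 _ (L₂.inv_mem hb)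
  have e1' : c₁ * a = a⁻¹ * c₁ := by rw [← e1]; group
  have e2' : c₂ * b = b⁻¹ * c₂ := by rw [← e2]; group
  have e3 : a⁻¹ * b⁻¹ = a * b := by
    rw [P.a_inv ha hb ha2 hb2, P.b_inv ha hb ha2 hb2]
    calc a * j * (b * j) = a * (j * b) * j := by group
      _ = a * (b * j) * j := by rw [P.j_comm₂ hb]
      _ = a * b * (j * j) := by group
      _ = a * b := by rw [← pow_two, P.j2, mul_one]
  calc c₁ * c₂ * (a * b) = c₁ * (c₂ * a) * b := by group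
    _ = c₁ * (a * c₂) * b := by rw [c1]
    _ = (c₁ * a) * (c₂ * b) := by group
    _ = (a⁻¹ * c₁) * (b⁻¹ * c₂) := by rw [e1', e2']
    _ = a⁻¹ * (c₁ * b⁻¹) * c₂ := by group
    _ = a⁻¹ * (b⁻¹ * c₁) * c₂ := by rw [c2]
    _ = (a⁻¹ * b⁻¹) * (c₁ * c₂) := by group
    _ = a * b * (c₁ * c₂) := by rw [e3]

theorem Pkg.T2_sq {y : G} (h : T2 L₁ L₂ a b y) : y ^ 2 = 1 := by
  obtain ⟨c₁, h1, c₂, h2, rfl, e1, e2⟩ := h
  have s1 := P.s₁.sq a ha ha2 c₁ h1 e1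
  have s2 := P.s₂.sq b hb hb2 c₂ h2 e2
  have c1 : c₁ * c₂ = c₂ * c₁ := P.hc c₁ h1 c₂ h2
  calc (c₁ * c₂) ^ 2 = c₁ ^ 2 * c₂ ^ 2 := (show Commute c₁ c₂ from c1).mul_pow 2
    _ = 1 := by rw [s1, s2, ← pow_two, P.j2]

theorem Pkg.T2_inv {y z : G} (h : T2 L₁ L₂ a b y) (hz : T1 L₁ L₂ a b z) : y * z * y⁻¹ = z⁻¹ := by
  obtain ⟨c₁, h1, c₂, h2, rfl, e1, e2⟩ := h
  obtain ⟨d₁, k1, d₂, k2, rfl, f1, f2⟩ := hz
  have s1 := P.s₁.anti a ha ha2 c₁ h1 e1 d₁ k1 f1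
  have s2 := P.s₂.anti b hb hb2 c₂ h2 e2 d₂ k2 f2
  have c1 : c₂ * d₁ = d₁ * c₂ := (P.hc d₁ k1 c₂ h2).symm
  have c2 : d₂ * c₁⁻¹ = c₁⁻¹ * d₂ := (P.hc _ (L₁.inv_mem h1) d₂ k2).symm
  have c3 : c₂ * c₁⁻¹ = c₁⁻¹ * c₂ := (P.hc _ (L₁.inv_mem h1) c₂ h2).symm
  have c4 : d₁⁻¹ * d₂⁻¹ = d₂⁻¹ * d₁⁻¹ := P.hc _ (L₁.inv_mem k1) _ (L₂.inv_mem k2)
  calc c₁ * c₂ * (d₁ * d₂) * (c₁ * c₂)⁻¹
      = c₁ * (c₂ * d₁) * d₂ * c₂⁻¹ * c₁⁻¹ := by group
    _ = c₁ * (d₁ * c₂) * d₂ * c₂⁻¹ * c₁⁻¹ := by rw [c1]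
    _ = c₁ * d₁ * (c₂ * d₂ * c₂⁻¹ * c₁⁻¹) := by group
    _ = c₁ * d₁ * (c₁⁻¹ * (c₂ * d₂ * c₂⁻¹)) := by
        rw [P.hc _ (L₁.inv_mem h1) _ (L₂.mul_mem (L₂.mul_mem h2 k2) (L₂.inv_mem h2))]
    _ = (c₁ * d₁ * c₁⁻¹) * (c₂ * d₂ * c₂⁻¹) := by group
    _ = d₁⁻¹ * d₂⁻¹ := by rw [s1, s2]
    _ = (d₁ * d₂)⁻¹ := by rw [c4]; group

theorem Pkg.T2_mul {y z : G} (h : T2 L₁ L₂ a b y) (hz : T1 L₁ L₂ a b z) : T2 L₁ L₂ a b (y * z) := by
  obtain ⟨c₁, h1, c₂, h2, rfl, e1, e2⟩ := h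
  obtain ⟨d₁, k1, d₂, k2, rfl, f1, f2⟩ := hz
  refine ⟨c₁ * d₁, L₁.mul_mem h1 k1, c₂ * d₂, L₂.mul_mem h2 k2, ?_, ?_, ?_⟩
  · have c1 : c₂ * d₁ = d₁ * c₂ := (P.hc d₁ k1 c₂ h2).symm
    calc c₁ * c₂ * (d₁ * d₂) = c₁ * (c₂ * d₁) * d₂ := by group
      _ = c₁ * (d₁ * c₂) * d₂ := by rw [c1]
      _ = c₁ * d₁ * (c₂ * d₂) := by group
  · have : d₁ * a * d₁⁻¹ = a := by rw [f1]; group
    calc c₁ * d₁ * a * (c₁ * d₁)⁻¹ = c₁ * (d₁ * a * d₁⁻¹) * c₁⁻¹ := by group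
      _ = a⁻¹ := by rw [this, e1]
  · have : d₂ * b * d₂⁻¹ = b := by rw [f2]; group
    calc c₂ * d₂ * b * (c₂ * d₂)⁻¹ = c₂ * (d₂ * b * d₂⁻¹) * c₂⁻¹ := by group
      _ = b⁻¹ := by rw [this, e2]

theorem Pkg.T1_comm {y z : G} (h : T1 L₁ L₂ a b y) (hz : T1 L₁ L₂ a b z) : y * z = z * y := by
  obtain ⟨c₁, h1, c₂, h2, rfl, e1, e2⟩ := h
  obtain ⟨d₁, k1, d₂, k2, rfl, f1, f2⟩ := hz
  have s1 := P.s₁.comm a ha ha2 c₁ h1 d₁ k1 e1 f1
  have s2 := P.s₂.comm b hb hb2 c₂ h2 d₂ k2 e2 f2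
  have c1 : c₂ * d₁ = d₁ * c₂ := (P.hc d₁ k1 c₂ h2).symm
  have c2 : d₂ * c₁ = c₁ * d₂ := (P.hc c₁ h1 d₂ k2).symm
  calc c₁ * c₂ * (d₁ * d₂) = c₁ * (c₂ * d₁) * d₂ := by group
    _ = c₁ * (d₁ * c₂) * d₂ := by rw [c1]
    _ = (c₁ * d₁) * (c₂ * d₂) := by group
    _ = (d₁ * c₁) * (d₂ * c₂) := by rw [s1, s2]
    _ = d₁ * (c₁ * d₂) * c₂ := by group
    _ = d₁ * (d₂ * c₁) * c₂ := by rw [c2]
    _ = d₁ * d₂ * (c₁ * c₂) := by group

theorem Pkg.T2_exists : ∃ f, T2 L₁ L₂ a b f := by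
  obtain ⟨u, hu, e1⟩ := P.s₁.ex a ha ha2
  obtain ⟨v, hv, e2⟩ := P.s₂.ex b hb hb2
  exact ⟨u * v, u, hu, v, hv, rfl, e1, e2⟩

omit ha2 hb2 in
theorem T1_left (ha2 : a ^ 2 = j) {c : G} (hc : c ∈ L₁) (h : c * a = a * c) :
    T1 L₁ L₂ a b c :=
  ⟨c, hc, 1, L₂.one_mem, by simp, h, by simp⟩

/-- The height lemma. -/
theorem Pkg.height {y : G} {s : ℕ} (h : T1 L₁ L₂ a b y) (hy : y ^ (2 ^ s) = a * b) :
    ∃ y₁, T1 L₁ L₂ a b y₁ ∧ y₁ ^ (2 ^ (s + 1)) = j := by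
  obtain ⟨c₁, h1, c₂, h2, rfl, e1, e2⟩ := h
  have c : Commute c₁ c₂ := P.hc c₁ h1 c₂ h2
  rw [c.mul_pow] at hy
  set A := c₁ ^ (2 ^ s) with hA
  set B := c₂ ^ (2 ^ s) with hB
  have hA1 : A ∈ L₁ := L₁.pow_mem h1 _
  have hB2 : B ∈ L₂ := L₂.pow_mem h2 _
  have e3 : a⁻¹ * A = b * B⁻¹ := by
    calc a⁻¹ * A = a⁻¹ * (A * B) * B⁻¹ := by group
      _ = a⁻¹ * (a * b) * B⁻¹ := by rw [hy]
      _ = b * B⁻¹ := by group
  have e4 : a⁻¹ * A ∈ L₂ := by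
    rw [e3]
    exact L₂.mul_mem hb (L₂.inv_mem hB2)
  refine ⟨c₁, ⟨c₁, h1, 1, L₂.one_mem, by simp, e1, by simp⟩, ?_⟩
  have e5 : c₁ ^ (2 ^ (s + 1)) = A ^ 2 := by
    rw [hA, ← pow_mul, pow_succ]
  rw [e5]
  have e6 : A = a * (a⁻¹ * A) := by group
  rcases P.hm _ (L₁.mul_mem (L₁.inv_mem ha) hA1) e4 with h3 | h3
  · rw [e6, h3, mul_one, ha2]
  · rw [e6, h3]
    have cj : Commute a j := P.j_comm₁ ha
    rw [cj.mul_pow, ha2, P.j2, mul_one]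

end Types

section Two

variable {L₁ L₂ L₁' L₂' : Subgroup G} {j n x n' a b a' b' : G}

/-- Closure of the product set of commuting subgroups. -/
theorem prod_closed {L₁ L₂ : Subgroup G} (hc : ∀ x ∈ L₁, ∀ y ∈ L₂, x * y = y * x) {u v : G}
    (hu : ∃ c ∈ L₁, ∃ d ∈ L₂, u = c * d) (hv : ∃ c ∈ L₁, ∃ d ∈ L₂, v = c * d) :
    ∃ c ∈ L₁, ∃ d ∈ L₂, u * v = c * d := by
  obtain ⟨c, hc1, d, hd, rfl⟩ := hu
  obtain ⟨c', hc1', d', hd', rfl⟩ := hv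
  refine ⟨c * c', L₁.mul_mem hc1 hc1', d * d', L₂.mul_mem hd hd', ?_⟩
  have : d * c' = c' * d := (hc c' hc1' d hd).symm
  calc c * d * (c' * d') = c * (d * c') * d' := by group
    _ = c * (c' * d) * d' := by rw [this]
    _ = c * c' * (d * d') := by group

/-- `T1 ⊆ T1'`. -/
theorem T1_sub (P : Pkg L₁ L₂ j n) (P' : Pkg L₁' L₂' x n') (ha : a ∈ L₁) (hb : b ∈ L₂)
    (ha2 : a ^ 2 = j) (hb2 : b ^ 2 = j) (hx : a * b = x) (ha' : a' ∈ L₁') (hb' : b' ∈ L₂')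
    (ha'2 : a' ^ 2 = x) (hb'2 : b' ^ 2 = x) (hj : a' * b' = j) {z : G} (hz : T1 L₁ L₂ a b z) :
    T1 L₁' L₂' a' b' z := by
  -- involutions of type 2 lie in `E'`
  have hT2 : ∀ f, T2 L₁ L₂ a b f → ∃ c ∈ L₁', ∃ d ∈ L₂', f = c * d := by
    intro f hf
    apply P'.inv_mem_E
    · have := P.T2_comm_x ha hb ha2 hb2 hf
      rwa [hx] at this
    · exact P.T2_sq ha hb ha2 hb2 hf
  -- elements of type 1 lie in `E'`
  have hT1 : ∀ z, T1 L₁ L₂ a b z → ∃ c ∈ L₁', ∃ d ∈ L₂', z = c * d := by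
    intro z hz
    obtain ⟨f, hf⟩ := P.T2_exists ha hb ha2 hb2
    have h1 := hT2 f hf
    have h2 := hT2 (f * z) (P.T2_mul ha hb ha2 hb2 hf hz)
    have h3 : f * f = 1 := by
      rw [← pow_two]
      exact P.T2_sq ha hb ha2 hb2 hf
    obtain ⟨c, hc, d, hd, e⟩ := prod_closed P'.hc h1 h2
    refine ⟨c, hc, d, hd, ?_⟩
    rw [← e, ← mul_assoc, h3, one_mul]
  -- dichotomy
  have hdich : ∀ z, T1 L₁ L₂ a b z → T1 L₁' L₂' a' b' z ∨ T2 L₁' L₂' a' b' z := by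
    intro z hz
    obtain ⟨c, hc, d, hd, rfl⟩ := hT1 z hz
    apply P'.dichotomy ha' hb' ha'2 hb'2 hc hd
    have := P.T1_comm_j ha hb ha2 hb2 hz
    rwa [hj]
  have haT : T1 L₁ L₂ a b a := ⟨a, ha, 1, L₂.one_mem, by simp, rfl, by simp⟩
  have haT' : T1 L₁' L₂' a' b' a := by
    rcases hdich a haT with h | h
    · exact h
    · exfalso
      have h1 := P'.T2_sq ha' hb' ha'2 hb'2 h
      rw [ha2] at h1
      exact P.j1 h1
  rcases hdich z hz with h | h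
  · exact h
  · exfalso
    have h1 := P'.T2_inv ha' hb' ha'2 hb'2 h haT'
    have h2 := P.T1_comm ha hb ha2 hb2 hz haT
    have h3 : a = a⁻¹ := by
      rw [← h1, h2]
      group
    apply P.j1
    rw [← ha2, pow_two]
    nth_rewrite 1 [h3]
    group

/-- Two packages with commuting centres have the same centre. -/
theorem no_commuting [Finite G] (P : Pkg L₁ L₂ j n) (P' : Pkg L₁' L₂' x n') (hne : x ≠ j)
    (hcomm : x * j = j * x) : False := by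
  obtain ⟨a, ha, b, hb, hx, ha2, hb2⟩ := P.decomp hcomm P'.j2 P'.j1 hne
  obtain ⟨a', ha', b', hb', hj, ha'2, hb'2⟩ := P'.decomp hcomm.symm P.j2 P.j1 hne.symm
  have S1 : ∀ z, T1 L₁ L₂ a b z → T1 L₁' L₂' a' b' z := fun z hz =>
    T1_sub P P' ha hb ha2 hb2 hx.symm ha' hb' ha'2 hb'2 hj.symm hz
  have S2 : ∀ z, T1 L₁' L₂' a' b' z → T1 L₁ L₂ a b z := fun z hz =>
    T1_sub P' P ha' hb' ha'2 hb'2 hj.symm ha hb ha2 hb2 hx.symm hz
  -- heights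
  have key : ∀ k : ℕ, ∃ y, T1 L₁ L₂ a b y ∧ y ^ (2 ^ (2 * k)) = x := by
    intro k
    induction k with
    | zero =>
      refine ⟨a * b, ⟨a, ha, b, hb, rfl, rfl, rfl⟩, ?_⟩
      simp [hx]
    | succ k ih =>
      obtain ⟨y, hy, e⟩ := ih
      rw [hx] at e
      obtain ⟨y₁, hy₁, e₁⟩ := P.height ha hb ha2 hb2 hy e
      have hj' : y₁ ^ (2 ^ (2 * k + 1)) = a' * b' := by rw [← hj]; exact e₁
      obtain ⟨y₂, hy₂, e₂⟩ := P'.height ha' hb' ha'2 hb'2 (S1 _ hy₁) hj'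
      refine ⟨y₂, S2 _ hy₂, ?_⟩
      have : 2 * (k + 1) = 2 * k + 1 + 1 := by ring
      rw [this]
      exact e₂
  obtain ⟨y, -, e⟩ := key (Nat.card G)
  have h1 : ¬ y ^ 2 ^ (2 * Nat.card G) = 1 := by
    rw [e]
    exact P'.j1
  have h2 : y ^ 2 ^ (2 * Nat.card G + 1) = 1 := by
    rw [pow_succ, pow_mul, e]
    exact P'.j2
  have h3 := orderOf_eq_prime_pow h1 h2
  have h4 : orderOf y ≤ Nat.card G := by
    exact Nat.le_of_dvd Nat.card_pos (orderOf_dvd_natCard y)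
  rw [h3] at h4
  have h5 : 2 * Nat.card G + 1 < 2 ^ (2 * Nat.card G + 1) := Nat.lt_two_pow_self
  omega

end Two

end Cfsg.Agent.Lib.SL2Pair
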